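import Cfsg.Agent.H122.MinDeg
import Cfsg.Agent.H147.CharBound
import Cfsg.Agent.S0157

/-!
# Fixed points and the minimal degree

`fix_le_of_minDeg` : in a transitive action of a group whose nontrivial representations have degree at least `d` an
element `x` with `|C(x)| ≤ c²` has at most `(c / d) |Y| + 1` fixed points.
-/

set_option autoImplicit false

namespace Cfsg.Agent.H902.RF

open Cfsg Cfsg.Agent.Characters Cfsg.Agent.Characters.Core

/-- nontrivial irreducible characters have degree at least `d` -/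
theorem le_degree {T : Type} [Group T] [Finite T] {d : ℕ} (hdeg : H122.MinDeg T d) {χ : T → ℂ}
    (hχ : IsIrrCharacter T χ) (h1 : χ ≠ 1) : ∃ n : ℕ, d ≤ n ∧ χ 1 = n := by
  obtain ⟨n, ρ, hρ, rfl⟩ := hχ
  have hn : ρ.character 1 = n := by rw [Representation.char_one, Module.finrank_fin_fun]
  refine ⟨n, ?_, hn⟩
  have h2 := hdeg (Fin n → ℂ) ρ (by
    by_contra hcon
    push Not at hcon
    apply h1
    have h3 : ∀ g, ρ.character g = ρ.character 1 := by
      intro g
      change LinearMap.trace ℂ _ (ρ g) = LinearMap.trace ℂ _ (ρ 1)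
      rw [hcon g, hcon 1]
    have hT : Fintype T := Fintype.ofFinite T
    have h4 : classInner ρ.character ρ.character = 1 := classInner_irr_self ⟨n, ρ, hρ, rfl⟩
    have hne : (Nat.card T : ℂ) ≠ 0 := by exact_mod_cast Nat.card_pos.ne'
    rw [classInner_def] at h4
    simp only [h3, hn, Complex.conj_natCast] at h4
    rw [Finset.sum_const, Finset.card_univ, nsmul_eq_mul, ← Nat.card_eq_fintype_card,
      inv_mul_cancel_left₀ hne] at h4
    have h6 : n * n = 1 := by exact_mod_cast h4
    have h7 : n = 1 := Nat.eq_one_of_mul_eq_one_right h6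
    ext g
    rw [h3, hn, h7]
    simp)
  rwa [Module.finrank_fin_fun] at h2

theorem fix_le_of_minDeg {X : Type} [Group X] [Finite X] {d : ℕ} (hd : H122.MinDeg X d) {Y : Type} [Finite Y]
    [MulAction X Y] [MulAction.IsPretransitive X Y] (x : X) {c : ℕ}
    (hc : Nat.card (Subgroup.centralizer ({x} : Set X)) ≤ c ^ 2) :
    d * Nat.card (MulAction.fixedBy Y x) ≤ d + c * Nat.card Y := by
  classical
  have : Fintype X := Fintype.ofFinite X
  have : Finite (IrrCharacter X) := finite_irr
  have : Fintype (IrrCharacter X) := Fintype.ofFinite _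
  rcases isEmpty_or_nonempty Y with hY | hY
  · have h0 : Nat.card (MulAction.fixedBy Y x) = 0 := by
      rw [Nat.card_eq_zero]
      left
      exact ⟨fun y => hY.elim y.1⟩
    rw [h0, mul_zero]
    exact Nat.zero_le _
  have hπc : IsCharacter X (fun g : X => (Nat.card (MulAction.fixedBy Y g) : ℂ)) :=
    Cfsg.Agent.S0157.isCharacter_fixedBy Y
  obtain ⟨m, hm⟩ := exists_nat_comb hπc
  set o : IrrCharacter X := ⟨1, isIrr_one⟩ with ho
  have hmo : m o = 1 := by
    have h3 : classInner (fun g : X => (Nat.card (MulAction.fixedBy Y g) : ℂ)) 1 = 1 := by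
      have h4 := Cfsg.Agent.S0157.avg_fixedBy (G := X) Y
      rw [Cfsg.Agent.S0157.card_orbits_of_pretransitive X Y] at h4
      simpa [classInner] using h4
    have h4 := classInner_sum_nsmul_irr m o
    rw [← hm] at h4
    have h5 : ((m o : ℕ) : ℂ) = 1 := h4.symm.trans h3
    exact_mod_cast h5
  have key : ∀ g : X, (Nat.card (MulAction.fixedBy Y g) : ℂ) =
      1 + ∑ χ ∈ Finset.univ.erase o, (m χ : ℂ) * (χ : X → ℂ) g := by
    intro g
    have h5 := congrFun hm g
    simp only [Finset.sum_apply] at h5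
    rw [h5, ← Finset.add_sum_erase Finset.univ _ (Finset.mem_univ o), hmo]
    congr 1
    · simp [ho]
    · exact Finset.sum_congr rfl fun χ _ => by simp
  choose! n hn hn1 using fun (χ : IrrCharacter X) (h : χ ∈ Finset.univ.erase o) =>
    le_degree hd χ.2 (fun h2 => (Finset.mem_erase.1 h).1 (Subtype.ext h2))
  -- the sum of the degrees
  have hsum : 1 + ∑ χ ∈ Finset.univ.erase o, m χ * n χ = Nat.card Y := by
    have h5 := key 1
    have h6 : Nat.card (MulAction.fixedBy Y (1 : X)) = Nat.card Y := by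
      rw [MulAction.fixedBy_one_eq_univ]
      exact Nat.card_univ
    rw [h6] at h5
    have h7 : ((1 + ∑ χ ∈ Finset.univ.erase o, m χ * n χ : ℕ) : ℂ) = (Nat.card Y : ℂ) := by
      rw [h5]
      push_cast
      congr 1
      exact Finset.sum_congr rfl fun χ h => by rw [hn1 χ h]
    exact_mod_cast h7
  set M : ℕ := ∑ χ ∈ Finset.univ.erase o, m χ with hM
  have hMd : d * M ≤ Nat.card Y := by
    rw [hM, Finset.mul_sum]
    calc ∑ χ ∈ Finset.univ.erase o, d * m χ ≤ ∑ χ ∈ Finset.univ.erase o, m χ * n χ :=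
          Finset.sum_le_sum fun χ h => by
            rw [mul_comm]
            exact Nat.mul_le_mul_left _ (hn χ h)
      _ ≤ Nat.card Y := by omega
  -- the values at `x`
  have hval : (Nat.card (MulAction.fixedBy Y x) : ℝ) ≤ 1 + c * M := by
    have h5 : ‖(Nat.card (MulAction.fixedBy Y x) : ℂ)‖ ≤ 1 + ∑ χ ∈ Finset.univ.erase o, (m χ : ℝ) * c := by
      rw [key x]
      refine (norm_add_le _ _).trans ?_
      rw [norm_one]
      refine add_le_add le_rfl ((norm_sum_le _ _).trans (Finset.sum_le_sum fun χ _ => ?_))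
      rw [norm_mul, Complex.norm_natCast]
      refine mul_le_mul_of_nonneg_left ((H147.CharBound.norm_le_sqrt x χ).trans ?_) (Nat.cast_nonneg _)
      rw [Real.sqrt_le_left (Nat.cast_nonneg _)]
      exact_mod_cast hc
    rw [Complex.norm_natCast] at h5
    refine h5.trans (le_of_eq ?_)
    rw [hM, Nat.cast_sum, ← Finset.sum_mul, mul_comm]
  have hval' : Nat.card (MulAction.fixedBy Y x) ≤ 1 + c * M := by exact_mod_cast hval
  calc d * Nat.card (MulAction.fixedBy Y x) ≤ d * (1 + c * M) := Nat.mul_le_mul_left _ hval'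
    _ = d + c * (d * M) := by ring
    _ ≤ d + c * Nat.card Y := by
      exact Nat.add_le_add_left (Nat.mul_le_mul_left _ hMd) _

end Cfsg.Agent.H902.RF
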