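import Cfsg.Agent.H122.Cyc.TwF4Deg

/-!
# The degrees of the complex representations of `²F₄(q)`, `q ≥ 8`: at least `2 (q - 1) q⁴`

The torus permutes transitively the nontrivial characters of `X_4'`.
-/

set_option autoImplicit false
set_option linter.unusedSectionVars false

namespace Cfsg.Agent.H902.RF

open Module Cfsg.Agent.H121.Wt Cfsg.Agent.H121.Chr Cfsg.Agent.H122 Cfsg.Agent.H122.Cyc.TwF4
open Cfsg.Agent.H934.HeisTwF4 Cfsg.Agent.KFacts.TwF4

section

variable {F : Type} [Field F] {σ : F →+* F} {G : Type*} [Group G] (S : Full σ G)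

/-- the multipliers of a torus element on the five coordinates -/
def mt (σ : F →+* F) (c d : Fˣ) : Fin 5 → F :=
  ![(chE σ 1 c d : F) * σ (chE σ 1 c d : F), (chO σ 1 c d : F), (chE σ 2 c d : F) * σ (chE σ 2 c d : F),
    (chO σ 2 c d : F), (chE σ 3 c d : F) * σ (chE σ 3 c d : F)]

theorem mt_ne (σ : F →+* F) (c d : Fˣ) (k : Fin 5) : mt σ c d k ≠ 0 := by
  have h1 : ∀ x : Fˣ, (x : F) * σ (x : F) ≠ 0 := fun x =>
    mul_ne_zero x.ne_zero ((map_ne_zero σ).2 x.ne_zero)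
  fin_cases k
  · exact h1 _
  · exact Units.ne_zero _
  · exact h1 _
  · exact Units.ne_zero _
  · exact h1 _

theorem h_gn (c d : Fˣ) (k : Fin 5) (v : F) :
    S.h c d * gn S k v * (S.h c d)⁻¹ = gn S k (mt σ c d k * v) := by
  fin_cases k
  · show S.h c d * S.e 1 0 v * (S.h c d)⁻¹ = S.e 1 0 _
    rw [S.h_e, mul_zero]
    rfl
  · exact S.h_o _ _ _ _
  · show S.h c d * S.e 2 0 v * (S.h c d)⁻¹ = S.e 2 0 _
    rw [S.h_e, mul_zero]
    rfl
  · exact S.h_o _ _ _ _
  · show S.h c d * S.e 3 0 v * (S.h c d)⁻¹ = S.e 3 0 _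
    rw [S.h_e, mul_zero]
    rfl

theorem h_i5 (c d : Fˣ) (e : E5 F) : S.h c d * i5 S e * (S.h c d)⁻¹ =
    i5 S (fun k => Multiplicative.ofAdd (mt σ c d k * Multiplicative.toAdd (e k))) := by
  revert e
  refine ind5 ?_ ?_
  · intro a b ha hb
    have h1 : (fun k => Multiplicative.ofAdd (mt σ c d k * Multiplicative.toAdd ((a * b) k)) : E5 F) =
        (fun k => Multiplicative.ofAdd (mt σ c d k * Multiplicative.toAdd (a k))) *
          (fun k => Multiplicative.ofAdd (mt σ c d k * Multiplicative.toAdd (b k))) := by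
      funext k
      rw [Pi.mul_apply, Pi.mul_apply, toAdd_mul, mul_add, ofAdd_add]
    rw [h1, map_mul, map_mul, ← ha, ← hb]
    group
  · intro l v
    rw [i5_s5, h_gn, ← i5_s5]
    congr 1
    funext k
    by_cases hk : k = l
    · subst hk
      simp [s5]
    · have h1 : s5 l v k = 1 := Pi.mulSingle_eq_of_ne hk _
      have h2 : s5 l (mt σ c d l * v) k = 1 := Pi.mulSingle_eq_of_ne hk _
      rw [h1, h2, toAdd_one, mul_zero, ofAdd_zero]

theorem h_x5 (c d : Fˣ) (a : Fin 5 → F) :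
    S.h c d * x5 S a = x5 S (fun k => mt σ c d k * a k) * S.h c d := by
  rw [← mul_inv_eq_iff_eq_mul]
  exact h_i5 S c d _

end

section

variable {F : Type} [Field F] [Fintype F] [CharP F 2] {σ : F →+* F} {G : Type*} [Group G] (S : Full σ G)
variable {V : Type*} [AddCommGroup V] [Module ℂ V] [FiniteDimensional ℂ V] (ρ : Representation ℂ G V)

/-- the scaled character -/
def sc (χ : AddChar (Fin 5 → F) ℂ) (D : Fin 5 → F) : AddChar (Fin 5 → F) ℂ where
  toFun a := χ (fun k => D k * a k)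
  map_zero_eq_one' := by
    have h : (fun k => D k * (0 : Fin 5 → F) k) = 0 := by
      funext k
      simp
    rw [h, AddChar.map_zero_eq_one]
  map_add_eq_mul' a b := by
    have h : (fun k => D k * (a + b) k) = (fun k => D k * a k) + fun k => D k * b k := by
      funext k
      simp [mul_add]
    rw [h, AddChar.map_add_eq_mul]

theorem sc_apply (χ : AddChar (Fin 5 → F) ℂ) (D a : Fin 5 → F) : sc χ D a = χ (fun k => D k * a k) := rfl

theorem c2_sc (χ : AddChar (Fin 5 → F) ℂ) (D : Fin 5 → F) : c2 (sc χ D) = AddChar.mulShift (c2 χ) (D 2) := by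
  ext x
  rw [AddChar.mulShift_apply]
  show χ (fun k => D k * (Pi.single 2 x : Fin 5 → F) k) = χ (Pi.single 2 (D 2 * x))
  congr 1
  funext k
  by_cases hk : k = 2
  · subst hk
    rw [Pi.single_eq_same, Pi.single_eq_same]
  · rw [Pi.single_eq_of_ne hk, Pi.single_eq_of_ne hk, mul_zero]

theorem finrank_sc (c d : Fˣ) (χ : AddChar (Fin 5 → F) ℂ) :
    finrank ℂ (wt (fun a => ρ (x5 S a)) (sc χ fun k => (mt σ c d k)⁻¹)) =
      finrank ℂ (wt (fun a => ρ (x5 S a)) χ) := by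
  refine (finrank_wt_eq ρ (x := x5 S) (g := S.h c d) (f := fun a k => mt σ c d k * a k) (h_x5 S c d)
    (Function.bijective_iff_has_inverse.2 ⟨fun a k => (mt σ c d k)⁻¹ * a k, ?_, ?_⟩) fun a => ?_).symm
  · intro a
    funext k
    exact inv_mul_cancel_left₀ (mt_ne σ c d k) _
  · intro a
    funext k
    exact mul_inv_cancel_left₀ (mt_ne σ c d k) _
  · rw [sc_apply]
    congr 1
    funext k
    exact inv_mul_cancel_left₀ (mt_ne σ c d k) _

include S in
/-- the torus is transitive on `X_4'` -/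
theorem exists_mt (z : Fˣ) : ∃ c d : Fˣ, (mt σ c d 2)⁻¹ = z := by
  have hz0 : ((z⁻¹ : Fˣ) : F) ≠ 0 := Units.ne_zero _
  have hs0 : σ ((z⁻¹ : Fˣ) : F) ≠ 0 := (map_ne_zero σ).2 hz0
  let χ : Fˣ := Units.mk0 (σ ((z⁻¹ : Fˣ) : F) / ((z⁻¹ : Fˣ) : F)) (div_ne_zero hs0 hz0)
  refine ⟨χ⁻¹, 1, ?_⟩
  have h1 : chE σ 2 χ⁻¹ (1 : Fˣ) = χ := by
    simp [chE]
  have h2 : mt σ χ⁻¹ 1 2 = (chE σ 2 χ⁻¹ (1 : Fˣ) : F) * σ (chE σ 2 χ⁻¹ (1 : Fˣ) : F) := rfl
  rw [h2, h1]
  have h3 : (χ : F) * σ (χ : F) = ((z⁻¹ : Fˣ) : F) := chi_eq S hz0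
  rw [h3, Units.val_inv_eq_inv_val, inv_inv]

theorem c2_tw (χ : AddChar (Fin 5 → F) ℂ) (t : Fin 5 → F) (ht : t 2 = 0) : c2 (tw χ t) = c2 χ := by
  ext x
  show tw χ t (Pi.single 2 x) = χ (Pi.single 2 x)
  rw [tw_apply, sum_single, ht, zero_mul, AddChar.map_zero_eq_one, mul_one]

include S in
/-- **the degrees of the representations** -/
theorem minDeg [IsSimpleGroup G] (hq : 2 < Fintype.card F) :
    MinDeg G (2 * (Fintype.card F - 1) * Fintype.card F ^ 4) := by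
  classical
  intro M _ _ _ ρ hρ
  have hact : IsAct (fun a => ρ (x5 S a)) := isAct_of ρ (x5_add S)
  have hne : x5 S (Pi.single 2 1) ≠ 1 := by
    intro h
    have h0 : x5 S (0 : Fin 5 → F) = 1 := by
      have := x5_add S 0 0
      rw [add_zero] at this
      exact mul_eq_left.1 this.symm
    have h1 := x5_inj S (h.trans h0.symm)
    have h2 := congrFun h1 2
    rw [Pi.single_eq_same] at h2
    exact one_ne_zero h2
  obtain ⟨χ, hw, hχ⟩ := exists_wt hact (faithful ρ hρ hne)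
  have hc2 : c2 χ ≠ 1 := by
    intro h
    exact hχ (DFunLike.congr_fun h (1 : F))
  have h2 := two_le S ρ hq hχ hw
  choose cc dd hcd using exists_mt (σ := σ) S
  let ψ : Fˣ → AddChar (Fin 5 → F) ℂ := fun z => sc χ fun k => (mt σ (cc z) (dd z) k)⁻¹
  have hψ2 : ∀ z, c2 (ψ z) = AddChar.mulShift (c2 χ) (z : F) := by
    intro z
    have h3 := c2_sc χ fun k => (mt σ (cc z) (dd z) k)⁻¹
    rw [h3]
    congr 1
    exact hcd z
  have hprim : AddChar.IsPrimitive (c2 χ) := AddChar.IsPrimitive.of_ne_one hc2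
  have hψne : ∀ z, c2 (ψ z) ≠ 1 := by
    intro z
    rw [hψ2]
    exact hprim z.ne_zero
  let f : Fˣ × (Fin 4 → F) → AddChar (Fin 5 → F) ℂ := fun p => tw (ψ p.1) (b5' p.2)
  have hf : Function.Injective f := by
    rintro ⟨z, b⟩ ⟨z', b'⟩ h
    have h3 : c2 (tw (ψ z) (b5' b)) = c2 (tw (ψ z') (b5' b')) := congrArg c2 h
    rw [c2_tw _ _ rfl, c2_tw _ _ rfl, hψ2, hψ2] at h3
    have h4 : (z : F) = z' := AddChar.to_mulShift_inj_of_isPrimitive hprim h3
    have h5 : z = z' := Units.ext h4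
    subst h5
    have h6 : b = b' := b5'_inj (tw_inj (hψne z) h)
    rw [h6]
  have h3 := mul_card_le hact (Finset.univ.image f) 2 (by
    intro φ hφ
    rw [Finset.mem_image] at hφ
    obtain ⟨⟨z, b⟩, -, rfl⟩ := hφ
    show 2 ≤ finrank ℂ (wt (fun a => ρ (x5 S a)) (tw (ψ z) (b5' b)))
    rw [finrank_tw S ρ (ψ z) _ rfl, finrank_sc S ρ]
    exact h2)
  rw [Finset.card_image_of_injective _ hf, Finset.card_univ, Fintype.card_prod, Fintype.card_fun, Fintype.card_fin,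
    Fintype.card_units, ← mul_assoc] at h3
  exact h3

end

/-- **`²F₄(q)`**, `q ≥ 8` -/
theorem minDeg_twF4 {K : Type} [Field K] [Fintype K] {m : ℕ} (hm : 1 ≤ m) (hK : Fintype.card K = 2 ^ (2 * m + 1))
    (hs : IsSimpleGroup ↥(Cfsg.Lie.twistedF4 K (2 ^ m))) :
    MinDeg ↥(Cfsg.Lie.twistedF4 K (2 ^ m)) (2 * (Fintype.card K - 1) * Fintype.card K ^ 4) := by
  have : CharP K 2 := Cfsg.Agent.ChevalleyStructure.TwF4.Twisted.charP_two hK
  obtain ⟨φ, hφ⟩ := Cfsg.Agent.ChevalleyStructure.TwF4.TwistedFix.exists_rln hK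
  have h2 : 2 < Fintype.card K := by
    rw [hK]
    calc 2 < 2 ^ 3 := by norm_num
      _ ≤ 2 ^ (2 * m + 1) := Nat.pow_le_pow_right (by norm_num) (by omega)
  exact minDeg (Cfsg.Agent.KFacts.TwF4.Inst.full hK hφ) h2

end Cfsg.Agent.H902.RF
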